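import Mathlib
import Cfsg.Agent.Lib.Helper5.CS4.Defs

set_option autoImplicit false

/-!
Package [E0] of the CS4 project (S4146): the centralizer of a prime-power element of the largest
class size `n * m` centralizes every element of coprime order commuting with it.
-/

namespace Cfsg.Agent.Lib.Helper10.CS4

open Cfsg.Agent.Lib.Helper5.CS4

universe u

/-- [E0] of CS4 (from [COP]). -/
theorem pkgE0 (hCop : PkgCop.{u}) : PkgE0.{u} := by
  intro G _ _ n m h t p k hp ht hct y hyt hyp g hgt
  obtain ⟨hn1, hm1, hcop, hrange⟩ := h
  have hcopo : (orderOf y).Coprime (orderOf t) := by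
    rw [ht]
    exact Nat.Coprime.pow_right k hyp
  have hC : Subgroup.centralizer ({y * t} : Set G) =
      Subgroup.centralizer ({y} : Set G) ⊓ Subgroup.centralizer ({t} : Set G) :=
    hCop y t hyt hcopo
  have hle : Subgroup.centralizer ({y * t} : Set G) ≤ Subgroup.centralizer ({t} : Set G) := by
    rw [hC]
    exact inf_le_right
  have hdvd : cidx t ∣ cidx (y * t) := Subgroup.index_dvd_of_le hle
  have hmem : cidx (y * t) ∈ ({1, n, m, n * m} : Set ℕ) := by
    rw [← hrange]
    exact ⟨y * t, rfl⟩
  have hnpos : 0 < n := by omega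
  have hmpos : 0 < m := by omega
  have heq : cidx (y * t) = n * m := by
    rw [hct] at hdvd
    simp only [Set.mem_insert_iff, Set.mem_singleton_iff] at hmem
    rcases hmem with h1 | h1 | h1 | h1
    · exfalso
      rw [h1] at hdvd
      have := Nat.le_of_dvd one_pos hdvd
      nlinarith
    · exfalso
      rw [h1] at hdvd
      have := Nat.le_of_dvd hnpos hdvd
      nlinarith
    · exfalso
      rw [h1] at hdvd
      have := Nat.le_of_dvd hmpos hdvd
      nlinarith
    · exact h1
  have hrel : (Subgroup.centralizer ({y * t} : Set G)).relIndex (Subgroup.centralizer ({t} : Set G)) = 1 := by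
    have h1 := Subgroup.relIndex_mul_index hle
    have h2 : (Subgroup.centralizer ({y * t} : Set G)).index = n * m := heq
    have h3 : (Subgroup.centralizer ({t} : Set G)).index = n * m := hct
    rw [h2, h3] at h1
    have hpos : 0 < n * m := Nat.mul_pos hnpos hmpos
    exact Nat.eq_of_mul_eq_mul_right hpos (by rw [h1, one_mul])
  have hge : Subgroup.centralizer ({t} : Set G) ≤ Subgroup.centralizer ({y * t} : Set G) :=
    Subgroup.relIndex_eq_one.mp hrel
  have hg : g ∈ Subgroup.centralizer ({t} : Set G) := by
    rw [Subgroup.mem_centralizer_iff]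
    intro z hz
    rw [Set.mem_singleton_iff] at hz
    subst hz
    exact hgt.symm
  have hg2 : g ∈ Subgroup.centralizer ({y} : Set G) := by
    have := hge hg
    rw [hC] at this
    exact this.1
  rw [Subgroup.mem_centralizer_iff] at hg2
  exact (hg2 y rfl).symm
end Cfsg.Agent.Lib.Helper10.CS4
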