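import Mathlib
import Cfsg.Agent.Lib.Helper5.CS4.Defs

set_option autoImplicit false

/-!
Package [M] of the CS4 project (S4146): for `m < n` the elements of class size `1` or `m` form a
normal subgroup.
-/

namespace Cfsg.Agent.Lib.Helper10.CS4

open Cfsg.Agent.Lib.Helper5.CS4

universe u

theorem cidx_one_eq {G : Type u} [Group G] : cidx (1 : G) = 1 := by
  have h : Subgroup.centralizer ({1} : Set G) = ⊤ := by
    ext g
    simp [Subgroup.mem_centralizer_iff]
  simp [cidx, h]

theorem centralizer_singleton_inv {G : Type u} [Group G] (x : G) :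
    Subgroup.centralizer ({x⁻¹} : Set G) = Subgroup.centralizer ({x} : Set G) := by
  ext g
  simp only [Subgroup.mem_centralizer_iff, Set.mem_singleton_iff, forall_eq]
  constructor
  · intro h
    have e : x * g = x * (g * x⁻¹) * x := by group
    rw [e, ← h]
    group
  · intro h
    have e : x⁻¹ * g = x⁻¹ * (g * x) * x⁻¹ := by group
    rw [e, ← h]
    group

theorem cidx_inv_eq {G : Type u} [Group G] (x : G) : cidx x⁻¹ = cidx x := by
  unfold cidx
  rw [centralizer_singleton_inv]

theorem cidx_conj_eq {G : Type u} [Group G] (g x : G) : cidx (g * x * g⁻¹) = cidx x := by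
  have h : Subgroup.centralizer ({g * x * g⁻¹} : Set G) =
      (Subgroup.centralizer ({x} : Set G)).map ((MulAut.conj g : G ≃* G) : G →* G) := by
    ext k
    simp only [Subgroup.mem_centralizer_iff, Set.mem_singleton_iff, forall_eq, Subgroup.mem_map,
      MonoidHom.coe_coe, MulAut.conj_apply]
    constructor
    · intro hk
      refine ⟨g⁻¹ * k * g, ?_, by group⟩
      have e : x * (g⁻¹ * k * g) = g⁻¹ * ((g * x * g⁻¹) * k) * g := by group
      rw [e, hk]
      group
    · rintro ⟨j, hj, rfl⟩
      have e : g * x * g⁻¹ * (g * j * g⁻¹) = g * (x * j) * g⁻¹ := by group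
      rw [e, hj]
      group
  unfold cidx
  rw [h]
  exact Subgroup.index_map_equiv _ (MulAut.conj g)

theorem cidx_mul_small {G : Type u} [Group G] [Finite G] (n m : ℕ) (h : Ctx G n m) (hmn : m < n)
    (x y : G) (hx : cidx x = 1 ∨ cidx x = m) (hy : cidx y = 1 ∨ cidx y = m) :
    cidx (x * y) = 1 ∨ cidx (x * y) = m := by
  obtain ⟨hn1, hm1, hcop, hrange⟩ := h
  have hle : Subgroup.centralizer ({x} : Set G) ⊓ Subgroup.centralizer ({y} : Set G) ≤
      Subgroup.centralizer ({x * y} : Set G) := by
    intro g hg
    rw [Subgroup.mem_inf] at hg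
    obtain ⟨h1, h2⟩ := hg
    rw [Subgroup.mem_centralizer_iff] at h1 h2 ⊢
    intro z hz
    rw [Set.mem_singleton_iff] at hz
    subst hz
    have e1 := h1 x rfl
    have e2 := h2 y rfl
    calc x * y * g = x * (y * g) := by group
      _ = x * (g * y) := by rw [e2]
      _ = (x * g) * y := by group
      _ = (g * x) * y := by rw [e1]
      _ = g * (x * y) := by group
  have hIne : (Subgroup.centralizer ({x} : Set G) ⊓ Subgroup.centralizer ({y} : Set G)).index ≠ 0 :=
    Subgroup.index_ne_zero_of_finite
  have hIpos : 0 < (Subgroup.centralizer ({x} : Set G) ⊓ Subgroup.centralizer ({y} : Set G)).index :=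
    Nat.pos_of_ne_zero hIne
  have hdvd : cidx (x * y) ∣
      (Subgroup.centralizer ({x} : Set G) ⊓ Subgroup.centralizer ({y} : Set G)).index :=
    Subgroup.index_dvd_of_le hle
  have hIle : (Subgroup.centralizer ({x} : Set G) ⊓ Subgroup.centralizer ({y} : Set G)).index ≤
      cidx x * cidx y := Subgroup.index_inf_le
  have hxI : cidx x ∣
      (Subgroup.centralizer ({x} : Set G) ⊓ Subgroup.centralizer ({y} : Set G)).index :=
    Subgroup.index_dvd_of_le inf_le_left
  have hnI : ¬ n ∣
      (Subgroup.centralizer ({x} : Set G) ⊓ Subgroup.centralizer ({y} : Set G)).index := by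
    intro hn
    have hnle := Nat.le_of_dvd hIpos hn
    rcases hx with hx | hx <;> rcases hy with hy | hy
    · rw [hx, hy] at hIle
      omega
    · rw [hx, hy] at hIle
      omega
    · rw [hx, hy] at hIle
      omega
    · rw [hx, hy] at hIle
      rw [hx] at hxI
      have h2 : n * m ∣
          (Subgroup.centralizer ({x} : Set G) ⊓ Subgroup.centralizer ({y} : Set G)).index :=
        Nat.Coprime.mul_dvd_of_dvd_of_dvd hcop hn hxI
      have h3 := Nat.le_of_dvd hIpos h2
      have h4 : n * m ≤ m * m := le_trans h3 hIle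
      have h5 : n ≤ m := Nat.le_of_mul_le_mul_right h4 (by omega)
      omega
  have hmem : cidx (x * y) ∈ ({1, n, m, n * m} : Set ℕ) := by
    rw [← hrange]
    exact ⟨x * y, rfl⟩
  simp only [Set.mem_insert_iff, Set.mem_singleton_iff] at hmem
  rcases hmem with h1 | h1 | h1 | h1
  · left; exact h1
  · exfalso
    apply hnI
    rw [← h1]
    exact hdvd
  · right; exact h1
  · exfalso
    apply hnI
    rw [h1] at hdvd
    exact dvd_trans (Dvd.intro m rfl) hdvd

/-- [M] of CS4. -/
theorem pkgM : PkgM.{u} := by
  intro G _ _ n m h hmn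
  refine ⟨{ carrier := {x | cidx x = 1 ∨ cidx x = m}
            mul_mem' := fun {a b} ha hb => cidx_mul_small n m h hmn a b ha hb
            one_mem' := Or.inl cidx_one_eq
            inv_mem' := fun {a} ha => by
              show cidx a⁻¹ = 1 ∨ cidx a⁻¹ = m
              rw [cidx_inv_eq]
              exact ha }, ?_, ?_⟩
  · constructor
    intro x hx g
    show cidx (g * x * g⁻¹) = 1 ∨ cidx (g * x * g⁻¹) = m
    rw [cidx_conj_eq]
    exact hx
  · intro x
    rfl

end Cfsg.Agent.Lib.Helper10.CS4
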